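import Cfsg.Agent.H79.PSLSpec.Odd
import Cfsg.Agent.H79.PSLSpec.Even
import Cfsg.Agent.S2475

/-!
# `PSL₂(q)` is determined by its order and element orders
-/

set_option autoImplicit false

namespace Cfsg.Agent.H79.PSLSpec

theorem recognition {G : Type*} [Group G] [Finite G] {F : Type*} [Field F] [Fintype F]
    (hF : 3 < Fintype.card F) :
    Nonempty (G ≃* Matrix.ProjectiveSpecialLinearGroup (Fin 2) F) ↔
      (Set.range (orderOf : G → ℕ) =
          Set.range (orderOf : Matrix.ProjectiveSpecialLinearGroup (Fin 2) F → ℕ) ∧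
        Nat.card G = Nat.card (Matrix.ProjectiveSpecialLinearGroup (Fin 2) F)) := by
  constructor
  · rintro ⟨e⟩
    refine ⟨?_, Nat.card_congr e.toEquiv⟩
    ext k
    constructor
    · rintro ⟨x, rfl⟩; exact ⟨e x, MulEquiv.orderOf_eq e x⟩
    · rintro ⟨x, rfl⟩; exact ⟨e.symm x, MulEquiv.orderOf_eq e.symm x⟩
  rintro ⟨hr, hc⟩
  obtain ⟨p, _⟩ := CharP.exists F
  obtain ⟨f, hp, hq⟩ := FiniteField.card F p
  have := Fact.mk hp
  have hspec := hr.trans (S2475.result p (by omega : 4 ≤ Fintype.card F))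
  have hcard := H6.card_psl2_mul (F := F) rfl
  rw [← hc] at hcard
  set q := Fintype.card F
  have hsp : ∀ g : G, orderOf g ∣ p ∨ orderOf g ∣ (q - 1) / Nat.gcd 2 (q - 1) ∨
      orderOf g ∣ (q + 1) / Nat.gcd 2 (q - 1) := fun g => by
    have : orderOf g ∈ Set.range (orderOf : G → ℕ) := ⟨g, rfl⟩
    rwa [hspec] at this
  have hex : ∀ k, (k ∣ p ∨ k ∣ (q - 1) / Nat.gcd 2 (q - 1) ∨
      k ∣ (q + 1) / Nat.gcd 2 (q - 1)) → ∃ g : G, orderOf g = k := fun k hk => by
    have : k ∈ Set.range (orderOf : G → ℕ) := by rw [hspec]; exact hk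
    exact this
  rcases Nat.even_or_odd q with he | ho
  · have hp2 : p = 2 := ((Nat.prime_dvd_prime_iff_eq Nat.prime_two hp).1
      (Nat.prime_two.dvd_of_dvd_pow (hq ▸ he.two_dvd))).symm
    obtain ⟨m, hm⟩ : ∃ m, q = m + 1 := ⟨q - 1, by omega⟩
    have hg : Nat.gcd 2 (q - 1) = 1 := by
      obtain ⟨i, hi⟩ := he
      rw [Nat.gcd_rec, show (q - 1) % 2 = 1 by omega]
      rfl
    rw [hg, Nat.div_one, Nat.div_one, show q - 1 = m by omega, show q + 1 = m + 2 by omega] at hsp hex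
    rw [hg, mul_one] at hcard
    have hq' : q = 2 ^ (f : ℕ) := by rw [hq, hp2]
    have hf : 2 ≤ (f : ℕ) := by
      by_contra hlt
      have : (2 : ℕ) ^ (f : ℕ) ≤ 2 ^ 1 := Nat.pow_le_pow_right two_pos (by omega)
      omega
    have h : SetupTwo G m f := by
      refine ⟨hf, by omega, ?_, fun g => ?_, hex m (Or.inr (Or.inl dvd_rfl)),
        hex (m + 2) (Or.inr (Or.inr dvd_rfl))⟩
      · rw [hcard, ← hq']
        congr 1
        rw [hm]
        have : (m + 1) ^ 2 = m * (m + 2) + 1 := by ring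
        omega
      · have := hsp g
        rwa [hp2] at this
    exact h.iso hq'
  · obtain ⟨i, hi⟩ := ho
    have hg : Nat.gcd 2 (q - 1) = 2 := Nat.gcd_eq_left ⟨i, by omega⟩
    rw [hg, show (q - 1) / 2 = i by omega, show (q + 1) / 2 = i + 1 by omega] at hsp hex
    rw [hg] at hcard
    have e : q ^ 2 - 1 = 4 * i * (i + 1) := by
      rw [hi]
      have : (2 * i + 1) ^ 2 = 4 * i * (i + 1) + 1 := by ring
      omega
    rw [e] at hcard
    rcases Nat.even_or_odd i with hev | hod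
    · have h : Setup G i (i + 1) q p := by
        refine ⟨hp, ⟨f, f.pos, hq⟩, by omega, hev.two_dvd, Or.inl ⟨rfl, hi⟩, ?_, hsp,
          hex i (Or.inr (Or.inl dvd_rfl)), hex (i + 1) (Or.inr (Or.inr dvd_rfl))⟩
        linarith
      exact h.iso rfl
    · have h : Setup G (i + 1) i q p := by
        refine ⟨hp, ⟨f, f.pos, hq⟩, by omega, hod.add_one.two_dvd,
          Or.inr ⟨rfl, by omega⟩, ?_, fun g => ?_,
          hex (i + 1) (Or.inr (Or.inr dvd_rfl)), hex i (Or.inr (Or.inl dvd_rfl))⟩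
        · linarith
        · have := hsp g; tauto
      exact h.iso rfl

end Cfsg.Agent.H79.PSLSpec
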